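import Cfsg.Agent.SCv.Defs
import Cfsg.Agent.Known.J2Mult
import Cfsg.Agent.Known.MathieuCover
import Cfsg.Agent.Spor.SuzMult
import Cfsg.Agent.Spor.SuzOrder
import Cfsg.Agent.Spor.M24Simple
import Cfsg.Agent.Spor.J2Simple
import Cfsg.Agent.Spor.J2Perf

/-!
# The central involution of the covering groups of `M₁₂`, `J₂` and `Suz` is a square
-/

set_option autoImplicit false
set_option maxRecDepth 100000

namespace Cfsg.Lib.SCv

open Subgroup Cfsg.Lib.Known Cfsg.Lib.Spor.Bulk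

universe u

theorem sqC_of {K : Type} [Group K] {m : ℕ} (hm : HasCyclicSchurMultiplier K m)
    (hK : commutator K = ⊤) {M : Type} [Group M] (σ : M →* K) (hs : Function.Surjective σ)
    (hc : σ.ker ≤ center M) (h2 : ∀ x ∈ σ.ker, x * x = 1) {g : M} (hg : g * g ∈ σ.ker)
    (g1 : g * g ≠ 1) : SqC.{u} K := by
  intro M0 _ _ σ0 h0 z hz z2
  have := Solv.finite_group_of_hasSchurMultiplier hm
  have hπ := Solv.freePres_surjective K
  obtain ⟨ε⟩ := (Solv.hasSchurMultiplier_iff_hopfM hπ).1 hm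
  obtain ⟨γ, hγ⟩ := (isCyclic_of_surjective ε.symm ε.symm.surjective).exists_generator
  obtain ⟨φ, hφ⟩ := Solv.exists_hopf_lift' (Solv.freePres K) σ hs hc
  obtain ⟨ψ, hψ⟩ := Solv.exists_hopf_lift' (Solv.freePres K) σ0 h0.1 h0.2.1
  obtain ⟨e, he, e1⟩ : σ g ∈ (_root_.commutator _).map (Solv.hopfπ (Solv.freePres K)) := by
    rw [map_commutator_eq, MonoidHom.range_eq_top.2 (Solv.hopfπ_surjective hπ), ← commutator_def, hK]
    exact mem_top _
  have h3 : g⁻¹ * φ e ∈ σ.ker := by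
    rw [MonoidHom.mem_ker, map_mul, map_inv, ← e1, ← hφ, MonoidHom.comp_apply, inv_mul_cancel]
  have h4 : φ (e * e) = g * g := by
    have c : Commute g (g⁻¹ * φ e) := mem_center_iff.1 (hc h3) g
    rw [map_mul, ← mul_inv_cancel_left g (φ e), c.symm.mul_mul_mul_comm, h2 _ h3, mul_one]
  obtain ⟨i, hi⟩ := mem_zpowers_iff.1 (hγ ⟨e * e, MonoidHom.mem_ker.2 (by
    rw [map_mul, e1, ← map_mul]; exact hg), mul_mem he he⟩)
  replace hi : (γ : Solv.HopfE (Solv.freePres K)) ^ i = e * e := congrArg Subtype.val hi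
  obtain ⟨c, hc', rfl⟩ := (Solv.map_hopfM_eq hπ σ0 h0.2.1 ψ hψ).ge ⟨hz, h0.2.2 hz⟩
  obtain ⟨j, hj⟩ := mem_zpowers_iff.1 (hγ ⟨c, hc'⟩)
  obtain rfl : (γ : Solv.HopfE (Solv.freePres K)) ^ j = c := congrArg Subtype.val hj
  obtain ⟨n, rfl | rfl⟩ := Int.even_or_odd' i
  · refine absurd ?_ g1
    rw [← h4, ← hi, two_mul, zpow_add, map_mul]
    exact h2 _ ((Solv.map_hopfM_eq hπ σ hc φ hφ).le ⟨_, zpow_mem γ.2 n, rfl⟩).1
  · refine ⟨ψ e ^ j, ?_⟩
    rw [← (Commute.refl _).mul_zpow, ← map_mul, ← hi, ← map_zpow, ← zpow_mul, mul_comm, zpow_mul, map_zpow,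
      zpow_add, zpow_mul, zpow_two, z2, one_zpow, one_mul, zpow_one]

theorem sqC_lifts {K : Type} [Group K] {m : ℕ} (hm : HasCyclicSchurMultiplier K m)
    (hK : commutator K = ⊤) {g : ℕ → K} {k : ℕ} {ι : ℕ → ℕ} {R : List (List ℕ)} (hP : Pres g k ι R)
    {α : List (ZMod 2)} (hL : Lifts (ZMod 2) (invRels ι k ++ R) α) {w : List ℕ} (hw : ∀ l ∈ w, l < k)
    (h1 : (w ++ w, 1) ∈ (invRels ι k ++ R).zip α) : SqC.{u} K := by
  obtain ⟨X, _, j, x, hj, h0, hc, hα⟩ := hL
  let Y : Subgroup X := centralizer (Set.range j)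
  have hxY : ∀ l, x l ∈ Y := fun l => mem_centralizer_iff.2 (by rintro _ ⟨a, rfl⟩; exact (hc l a).symm.eq)
  have hjY : ∀ a, j a ∈ Y := fun a => mem_centralizer_iff.2 (by
    rintro _ ⟨b, rfl⟩; rw [← map_mul, ← map_mul, mul_comm])
  let j' : Multiplicative (ZMod 2) →* Y := j.codRestrict Y hjY
  let x' : ℕ → Y := fun l => ⟨x l, hxY l⟩
  have hcen : j'.range ≤ center Y := by
    rintro _ ⟨a, rfl⟩
    exact mem_center_iff.2 fun y => Subtype.ext ((mem_centralizer_iff.1 y.2 _ ⟨a, rfl⟩).symm)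
  have : j'.range.Normal := Solv.normal_of_le_center hcen
  have hα' : List.Forall₂ (fun r a => wv x' r = j' (Multiplicative.ofAdd a)) (invRels ι k ++ R) α :=
    hα.imp fun r a h => Subtype.ext ((map_wv x' Y.subtype r).trans h)
  let π := QuotientGroup.mk' j'.range
  have hsat : Sat (fun l => π (x' l)) k ι R := by
    refine sat_of_all_rel (by rw [show x' 0 = 1 from Subtype.ext h0, map_one]) fun r hr => ?_
    obtain ⟨a, ha⟩ := forall₂_exists hα' hr
    rw [← map_wv, ha]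
    exact (QuotientGroup.eq_one_iff _).2 ⟨_, rfl⟩
  obtain ⟨θ, hθ⟩ := hP.lift _ _ hsat
  let Γ : Subgroup (K × Y) := MonoidHom.eqLocus (θ.comp (MonoidHom.fst K Y)) (π.comp (MonoidHom.snd K Y))
  have k1 : ∀ {y : Y}, (1, y) ∈ Γ → y ∈ j'.range := fun hy =>
    (QuotientGroup.eq_one_iff _).1 (Eq.trans (Eq.symm hy) (map_one θ))
  refine sqC_of hm hK ((MonoidHom.fst K Y).comp Γ.subtype) (fun a => ?_) ?_ ?_
    (g := ⟨(wv g w, wv x' w), (map_wv g θ w).trans ((wv_congr fun l hl => hθ l (hw l hl)).trans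
      (map_wv x' π w).symm)⟩) ?_ fun e => ?_
  · obtain ⟨y, hy⟩ := QuotientGroup.mk'_surjective j'.range (θ a)
    exact ⟨⟨(a, y), hy.symm⟩, rfl⟩
  · rintro ⟨⟨a, y⟩, hy⟩ ha
    obtain rfl : a = 1 := ha
    exact mem_center_iff.2 fun u => Subtype.ext (Prod.ext (by simp) (mem_center_iff.1 (hcen (k1 hy)) u.1.2))
  · rintro ⟨⟨a, y⟩, hy⟩ ha
    obtain rfl : a = 1 := ha
    obtain ⟨b, rfl⟩ := k1 hy
    refine Subtype.ext (Prod.ext (one_mul 1) ((map_mul j' b b).symm.trans ?_))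
    rw [(by decide : ∀ b : Multiplicative (ZMod 2), b * b = 1) b]
    exact map_one j'
  · exact (wv_append g w w).symm.trans (Sat.all_rel hP.sat _ (List.of_mem_zip h1).1)
  · have h2 : j' (Multiplicative.ofAdd 1) = 1 := (List.forall₂_zip hα' h1).symm.trans
      ((wv_append x' w w).trans (congrArg (fun u : Γ => u.1.2) e))
    exact absurd (hj ((congrArg Subtype.val h2).trans (map_one j).symm)) (by decide)

theorem perf_of {K : Type} [Group K] [Finite K] [IsSimpleGroup K] {n : ℕ} (h : Nat.card K = 2 * n + 4) :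
    commutator K = ⊤ := by
  refine (IsSimpleGroup.eq_bot_or_eq_top_of_normal _ inferInstance).resolve_left fun e => ?_
  have c : ∀ a b : K, a * b = b * a := fun a b => commutatorElement_eq_one_iff_mul_comm.1
    (mem_bot.1 (e.le (commutator_mem_commutator (mem_top a) (mem_top b))))
  let _ : CommGroup K := { mul_comm := c }
  have := (IsSimpleGroup.prime_card (α := K)).eq_two_or_odd
  omega

theorem sqC_m12 : SqC.{u} Spor.M12 :=
  m12p_pres.elim fun _ h => sqC_lifts mult_m12 (perf_of (n := 47518) Spor.MP.card_M12) h m12pal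
    (w := [5, 2, 8, 7]) (by decide) (by decide +kernel)

theorem sqC_j2 : SqC.{u} Spor.J2 := by
  have := Solv.finite_group_of_hasSchurMultiplier mult_j2
  obtain ⟨g, e⟩ := Spor.J2.exists_sq_eq
  refine sqC_of mult_j2 (perf_of (n := 302398) Spor.J2.card_J2) (QuotientGroup.mk' _)
    (QuotientGroup.mk'_surjective _) (QuotientGroup.ker_mk' _).le (fun x hx => ?_) (g := g)
    ((QuotientGroup.ker_mk' _).ge (e ▸ Spor.J2.negOne_mem)) (e ▸ Spor.J2.negOne_ne)
  have := pow_card_eq_one' (x := (⟨x, (QuotientGroup.ker_mk' _).le hx⟩ : center Spor.twoJ2))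
  rw [Spor.J2.card_center, pow_two] at this
  exact congrArg Subtype.val this

theorem sqC_suz : SqC.{u} Spor.Suz := by
  have := Solv.finite_group_of_hasSchurMultiplier Spor.SuzP.mult
  have := Spor.SuzP.simple
  exact sqC_lifts Spor.SuzP.mult (perf_of (n := 224172748798) Spor.SuzP.card) Spor.SuzP.pres Spor.SuzP.c2
    (w := [5]) (by decide) (by decide +kernel)

end Cfsg.Lib.SCv
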